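import Cfsg.Agent.H614.GLn.GB1
import Cfsg.Agent.H614.GLn.LabHom
import Cfsg.Agent.H505.S4536.DC.Size
import Cfsg.Agent.H157.GLB.DG
import Cfsg.Agent.H120.GLB.Ctx
import Cfsg.Agent.H623.GLn.Sec
import Cfsg.Agent.H112.GLB.Final
import Cfsg.Agent.H699.EqDeg
import Cfsg.Agent.H901.Sl.JJ
import Cfsg.Agent.H379.GLB.HC
import Cfsg.Agent.S0188

/-!
# P5GL, hBC: the Harish-Chandra restriction of the characters over one orbit
-/

set_option autoImplicit false

open scoped ComplexConjugate TensorProduct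

universe u

namespace Cfsg.Agent.H614.GLn.RSt

open MvPolynomial Cfsg Cfsg.Agent Cfsg.Agent.H614 Cfsg.Agent.H577.GLB.Std Cfsg.Agent.H614.GLn
open Cfsg.Agent.H577.GLB.Real (OnlyOn)
open Cfsg.Agent.H505.S4536.DC (pu Sf Sf_same sum_Sf sfun_eq pReg_iff sum_orbit Sf_eq_zero)

/-! ### multidegrees -/

section deg

variable {Q : ℤ} {M : ℕ} {m : ℕ}

open Classical in
/-- the degree in the variables with label `c` -/
noncomputable def wc (M : ℕ) (c : ZMod M) : Var M → ℕ := fun v => if v.2 = c then v.1 else 0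

theorem whomc_Pw {c c' : ZMod M} (hc : canon Q M c = c) (j : ℕ) :
    IsWeightedHomogeneous (wc M c') (Pw Q M j c) (j * (wc M c' (perZ Q M c, c))) := by
  classical
  unfold Pw rv
  split_ifs with h
  · convert isWeightedHomogeneous_X ℂ (wc M c') (j * perZ Q M c, canon Q M c) using 1
    unfold wc
    simp only [hc]
    split_ifs
    · rfl
    · rw [mul_zero]
  · exact isWeightedHomogeneous_zero ℂ (wc M c') _

theorem whomc_SS {c c' : ZMod M} (hc : canon Q M c = c) (k : ℕ) (β : Fin m → ℕ) :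
    IsWeightedHomogeneous (wc M c') (SS (fun j => Pw Q M j c) k β) (k * (wc M c' (perZ Q M c, c))) := by
  have h1 : ∀ s : Multiset ℕ, IsWeightedHomogeneous (wc M c') ((s.map fun j => Pw Q M j c).prod)
      (s.sum * (wc M c' (perZ Q M c, c))) := by
    intro s
    induction s using Multiset.induction_on with
    | empty => simpa using isWeightedHomogeneous_one ℂ (wc M c')
    | cons a s ih =>
      rw [Multiset.map_cons, Multiset.prod_cons, Multiset.sum_cons, add_mul]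
      exact (whomc_Pw hc a).mul ih
  rw [← mem_weightedHomogeneousSubmodule]
  unfold SS ZV
  refine Submodule.sum_mem _ fun ν _ => Submodule.smul_mem _ _ (Submodule.smul_mem _ _ ?_)
  rw [mem_weightedHomogeneousSubmodule]
  have := h1 ν.parts
  rwa [ν.parts_sum] at this

variable [NeZero M]

theorem whomc_SchP (t : ZMod M → Fin m → ℕ) {c' : ZMod M} (hc' : c' ∈ repsZ Q M) :
    IsWeightedHomogeneous (wc M c') (SchP Q M t) (H577.GLB.Std.bsz (t c') * perZ Q M c') := by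
  classical
  rw [SchP_eq]
  have h := IsWeightedHomogeneous.prod (repsZ Q M) _ _ fun c (hc : c ∈ repsZ Q M) =>
    whomc_SS (c' := c') (mem_repsZ.1 hc) (H577.GLB.Std.bsz (t c)) (t c)
  rw [Finset.sum_eq_single c'] at h
  · have h2 : wc M c' (perZ Q M c', c') = perZ Q M c' := if_pos rfl
    rw [h2] at h
    exact h
  · intro c _ hne
    have h2 : wc M c' (perZ Q M c, c) = 0 := if_neg hne
    rw [h2, mul_zero]
  · intro h2; exact absurd hc' h2

theorem form_eq_zero_of_weight {w : Var M → ℕ} {P P' : RS M} {a b : ℕ} (hP : IsWeightedHomogeneous w P a)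
    (hP' : IsWeightedHomogeneous w P' b) (hab : a ≠ b) : form Q M P P' = 0 := by
  unfold form
  refine Finset.sum_eq_zero fun s hs => ?_
  have h1 : P'.coeff s = 0 := by
    by_contra h2
    exact hab ((hP (mem_support_iff.1 hs)).symm.trans (hP' h2))
  rw [h1, map_zero, mul_zero, zero_mul]

/-- the multidegrees add -/
theorem bsz_add_of_form_ne_zero (hQ : IsUnit (Q : ZMod M)) {n a b : ℕ} (t : LabZ Q M m n) (t₁ : LabZ Q M m a)
    (t₂ : LabZ Q M m b) (h : form Q M (SchP Q M t.t) (SchP Q M t₁.t * SchP Q M t₂.t) ≠ 0) (c : ZMod M) :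
    H577.GLB.Std.bsz (t.t c) = H577.GLB.Std.bsz (t₁.t c) + H577.GLB.Std.bsz (t₂.t c) := by
  by_contra hne
  apply h
  have hc := canon_mem_repsZ hQ c
  refine form_eq_zero_of_weight (whomc_SchP t.t hc) ((whomc_SchP t₁.t hc).mul (whomc_SchP t₂.t hc)) ?_
  rw [← add_mul, t_canon t.t t.orb, t_canon t₁.t t₁.orb, t_canon t₂.t t₂.orb]
  intro h2
  exact hne (Nat.eq_of_mul_eq_mul_right (perZ_pos hQ _) h2)

end deg

/-! ### families over one orbit -/

section fam

variable {Q : ℤ} {M : ℕ} [NeZero M] {p m : ℕ}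

theorem pu_reg (hp : p.Prime) (c : ZMod M) : PReg M p (pu M p * c) :=
  (pReg_iff hp _).2 (H505.S4536.DC.pu_pu hp c)

theorem le_Sf (t : ZMod M → Fin m → ℕ) (c : ZMod M) : H577.GLB.Std.bsz (t c) ≤ Sf M p t (pu M p * c) := by
  classical
  rw [Sf]
  exact Finset.single_le_sum (f := fun c => H577.GLB.Std.bsz (t c)) (fun _ _ => Nat.zero_le _)
    (Finset.mem_filter.2 ⟨Finset.mem_univ c, rfl⟩)

/-- the labels of the members of a family over one orbit -/
theorem over_of_sameFam (hp : p.Prime) {t₀ t : ZMod M → Fin m → ℕ} {δ₀ : ZMod M} (h₀ : POnly M p t₀)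
    (h₁ : OnlyOn Q M δ₀ t₀) (h : SameFam Q M p t₀ t) (c : ZMod M) (hc : 0 < H577.GLB.Std.bsz (t c)) :
    SameZ Q M δ₀ (pu M p * c) := by
  have hr := pu_reg (M := M) hp c
  have h1 := (h _ hr).1
  rw [sfun_eq hp t hr, H157.GLB.sfun_of_pOnly hp h₀ hr] at h1
  refine h₁ _ ?_
  rw [h1]
  exact hc.trans_le (le_Sf t c)

theorem Sf_zero {t : ZMod M → Fin m → ℕ} {δ₀ δ : ZMod M}
    (h : ∀ c, 0 < H577.GLB.Std.bsz (t c) → SameZ Q M δ₀ (pu M p * c)) (hδ : ¬ SameZ Q M δ₀ δ) : Sf M p t δ = 0 := by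
  classical
  rw [Sf]
  refine Finset.sum_eq_zero fun c hc => ?_
  rw [Finset.mem_filter] at hc
  by_contra h1
  apply hδ
  rw [← hc.2]
  exact h c (Nat.pos_of_ne_zero h1)

theorem perZ_mul_Sf (hQ : IsUnit (Q : ZMod M)) {n : ℕ} (t : LabZ Q M m n) {δ₀ δ : ZMod M}
    (h : ∀ c, 0 < H577.GLB.Std.bsz (t.t c) → SameZ Q M δ₀ (pu M p * c)) (hδ : SameZ Q M δ₀ δ) :
    perZ Q M δ * Sf M p t.t δ = n := by
  have h1 := sum_Sf (p := p) t.t
  rw [t.sum, sum_orbit hQ _ fun c c' hcc => Sf_same hQ t.orb hcc,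
    Finset.sum_eq_single (canon Q M δ)] at h1
  · rwa [← perZ_of_same hQ (sameZ_canon δ), Sf_same hQ t.orb (sameZ_canon δ)] at h1
  · intro c hc hne
    rw [Sf_zero h, mul_zero]
    intro h2
    apply hne
    rw [← mem_repsZ.1 hc]
    exact (canon_eq_of_same hQ (SameZ.trans' (SameZ.symm' hQ hδ) h2)).symm
  · intro h2
    exact absurd (canon_mem_repsZ hQ δ) h2

theorem sameCol_one (β γ : Fin m → ℕ) : SameCol 1 β γ := by
  intro i
  unfold res
  simp only [Nat.mod_one]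

/-- two labels over the same orbit are in the same family -/
theorem sameFam_of_over (hp : p.Prime) (hQ : IsUnit (Q : ZMod M)) (hQp : (Q : ZMod p) = 1) {n : ℕ}
    (t t' : LabZ Q M m n) {δ₀ : ZMod M} (h : ∀ c, 0 < H577.GLB.Std.bsz (t.t c) → SameZ Q M δ₀ (pu M p * c))
    (h' : ∀ c, 0 < H577.GLB.Std.bsz (t'.t c) → SameZ Q M δ₀ (pu M p * c)) : SameFam Q M p t.t t'.t := by
  intro δ hδ
  refine ⟨?_, ?_⟩
  · rw [sfun_eq hp _ hδ, sfun_eq hp _ hδ]
    by_cases h1 : SameZ Q M δ₀ δ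
    · exact Nat.eq_of_mul_eq_mul_left (perZ_pos hQ δ)
        ((perZ_mul_Sf hQ t h h1).trans (perZ_mul_Sf hQ t' h' h1).symm)
    · rw [Sf_zero h h1, Sf_zero h' h1]
  · have h1 : eD Q M p δ = 1 := by
      rw [eD, hQp, one_pow, orderOf_one]
    rw [h1]
    exact sameCol_one _ _

theorem over_of_pOnly (hp : p.Prime) {t₀ : ZMod M → Fin m → ℕ} {δ₀ : ZMod M} (h₀ : POnly M p t₀)
    (h₁ : OnlyOn Q M δ₀ t₀) (c : ZMod M) (hc : 0 < H577.GLB.Std.bsz (t₀ c)) : SameZ Q M δ₀ (pu M p * c) := by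
  have h1 : PReg M p c := by
    by_contra h2
    exact absurd (h₀ c h2) hc.ne'
  rw [(pReg_iff hp c).1 h1]
  exact h₁ c hc

end fam

/-! ### class functions -/

section chars

open Cfsg.Agent.H577.GLB.Real Cfsg.Agent.H577.GLB Cfsg.Agent.H624.Sl Cfsg.Agent.H657 Cfsg.Agent.H608.BlockRank
open Cfsg.Agent.H623.GLn (evT)
open scoped MatrixGroups

/-- the Harish-Chandra restriction of a class function is a class function -/
theorem isClassFunction_hcRes {G : Type u} [Group G] [Finite G] (L U : Subgroup G)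
    (hLU : ∀ l ∈ L, ∀ u ∈ U, l * u * l⁻¹ ∈ U) {f : G → ℂ} (hf : IsClassFunction G f) :
    IsClassFunction L (hcRes L U f) := by
  intro x l
  unfold hcRes
  congr 1
  let σ : U ≃ U :=
    { toFun := fun u => ⟨(l : G) * u * (l : G)⁻¹, hLU l l.2 u u.2⟩
      invFun := fun u => ⟨(l : G)⁻¹ * u * ((l : G)⁻¹)⁻¹, hLU _ (L.inv_mem l.2) u u.2⟩
      left_inv := fun u => Subtype.ext (by simp [mul_assoc])
      right_inv := fun u => Subtype.ext (by simp [mul_assoc]) }
  rw [← finsum_comp_equiv σ]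
  refine finsum_congr fun u => ?_
  rw [← hf ((x : G) * u) (l : G)]
  congr 1
  show ((l * x * l⁻¹ : L) : G) * ((l : G) * u * (l : G)⁻¹) = _
  push_cast
  group

variable {F : Type u} [Field F] [Finite F] {K : Type u} [Field K] [Algebra F K] {θ : K →*₀ ℂ} {N M : ℕ} [NeZero M]
  {p : ℕ} {𝔐 : Ideal AlgInt} {V : ValuationSubring ℂ}

/-- the inner product of an outer product of functions -/
theorem classInner_evT {a b : ℕ} {L : Type u} [Group L] [Fintype L] (e' : GL (Fin a) F × GL (Fin b) F ≃* L)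
    [Fintype (GL (Fin a) F)] [Fintype (GL (Fin b) F)]
    (f ψ : L → ℂ) (w : RS M ⊗[ℂ] RS M)
    (hf : ∀ x : GL (Fin a) F × GL (Fin b) F, f (e' x) =
      evT (V₁ := Fin a → F) (V₂ := Fin b → F) θ M (Matrix.toLin' x.1.1) (Matrix.toLin' x.2.1) w)
    (χ₁ : GL (Fin a) F → ℂ) (χ₂ : GL (Fin b) F → ℂ) (hψ : ∀ x, ψ (e' x) = χ₁ x.1 * χ₂ x.2)
    (l₁ l₂ : RS M →ₗ[ℂ] ℂ) (hl₁ : ∀ x, l₁ x = classInner (Om (F := F) θ M a x) χ₁)
    (hl₂ : ∀ x, l₂ x = classInner (Om (F := F) θ M b x) χ₂) :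
    classInner f ψ = LinearMap.mul' ℂ ℂ (TensorProduct.map l₁ l₂ w) := by
  have h1 : classInner f ψ = classInner (fun x : GL (Fin a) F × GL (Fin b) F => f (e' x))
      (fun x => χ₁ x.1 * χ₂ x.2) := by
    rw [Characters.Core.classInner_def, Characters.Core.classInner_def, Nat.card_congr e'.toEquiv]
    congr 1
    refine (Fintype.sum_equiv e'.toEquiv _ _ fun x => ?_).symm
    show f (e' x) * conj (χ₁ x.1 * χ₂ x.2) = f (e' x) * conj (ψ (e' x))
    rw [hψ]
  rw [h1]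
  have h2 : (fun x : GL (Fin a) F × GL (Fin b) F => f (e' x)) = fun x =>
      evT (V₁ := Fin a → F) (V₂ := Fin b → F) θ M (Matrix.toLin' x.1.1) (Matrix.toLin' x.2.1) w :=
    funext hf
  rw [h2]
  clear h1 h2 hf
  induction w with
  | zero =>
    simp only [map_zero]
    exact Characters.Core.classInner_zero_left _
  | add w w' hw hw' =>
    simp only [map_add]
    rw [← hw, ← hw', ← Characters.Core.classInner_add_left]
    rfl
  | tmul x y =>
    rw [TensorProduct.map_tmul, LinearMap.mul'_apply, hl₁, hl₂, S0188.classInner_outer]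
    have h3 : (fun h : GL (Fin b) F => classInner (fun g : GL (Fin a) F =>
        evT (V₁ := Fin a → F) (V₂ := Fin b → F) θ M (Matrix.toLin' g.1) (Matrix.toLin' h.1) (x ⊗ₜ[ℂ] y)) χ₁) =
        classInner (Om (F := F) θ M a x) χ₁ • Om (F := F) θ M b y := by
      funext h
      have h4 : (fun g : GL (Fin a) F => evT (V₁ := Fin a → F) (V₂ := Fin b → F) θ M (Matrix.toLin' g.1)
          (Matrix.toLin' h.1) (x ⊗ₜ[ℂ] y)) = (Om (F := F) θ M b y h) • Om (F := F) θ M a x := by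
        funext g
        rw [H623.GLn.evT_tmul, Pi.smul_apply, smul_eq_mul, mul_comm]
        rfl
      rw [h4, Characters.Core.classInner_smul_left, Pi.smul_apply, smul_eq_mul, mul_comm]
    rw [h3, Characters.Core.classInner_smul_left]

/-- **The pairing**: the multiplicities of the Harish-Chandra restriction -/
theorem classInner_hcRes (hctx : Ctx F θ N M) {a b n m : ℕ} (ha : a ≤ N) (hb : b ≤ N)
    (e : ((Fin a → F) × (Fin b → F)) ≃ₗ[F] (Fin n → F)) (U : Subgroup (GL (Fin n) F))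
    (hHC : ∀ (x : RS M) (A : GL (Fin a) F) (B : GL (Fin b) F) (h : (jj (K := F) e).range), jj e (A, B) = h →
      hcRes (jj (K := F) e).range U (Om θ M n x) h = evT θ M (Matrix.toLin' A.1) (Matrix.toLin' B.1) (coP M x))
    [Fintype (jj (K := F) e).range] {x : RS M} (hx : x ∈ GenR (Nat.card F : ℤ) M)
    {ψ : (jj (K := F) e).range → ℂ} {χ₁ : GL (Fin a) F → ℂ} {χ₂ : GL (Fin b) F → ℂ}
    (hψ : ∀ (y : GL (Fin a) F × GL (Fin b) F) (h : (jj (K := F) e).range), jj e y = h → ψ h = χ₁ y.1 * χ₂ y.2)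
    {t₁ : LabZ (Nat.card F) M m a} {t₂ : LabZ (Nat.card F) M m b} {s₁ s₂ : ℂ} (hs₁ : s₁ ≠ 0) (hs₂ : s₂ ≠ 0)
    (h₁ : Om (F := F) θ M a (SchP (Nat.card F) M t₁.t) = s₁ • χ₁)
    (h₂ : Om (F := F) θ M b (SchP (Nat.card F) M t₂.t) = s₂ • χ₂) :
    classInner (hcRes (jj (K := F) e).range U (Om θ M n x)) ψ =
      (conj s₁)⁻¹ * (conj s₂)⁻¹ * form (Nat.card F : ℤ) M x (SchP (Nat.card F) M t₁.t * SchP (Nat.card F) M t₂.t) := by
  have := Fintype.ofFinite (GL (Fin a) F)
  have := Fintype.ofFinite (GL (Fin b) F)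
  have hQ := H112.GLB.isUnit_card hctx
  let e' : GL (Fin a) F × GL (Fin b) F ≃* (jj (K := F) e).range := MonoidHom.ofInjective (H901.Sl.jj_injective e)
  have he' : ∀ x, jj (K := F) e x = (e' x : GL (Fin n) F) := fun x => rfl
  have hχ₁ : χ₁ = s₁⁻¹ • Om (F := F) θ M a (SchP (Nat.card F) M t₁.t) := by
    rw [h₁, smul_smul, inv_mul_cancel₀ hs₁, one_smul]
  have hχ₂ : χ₂ = s₂⁻¹ • Om (F := F) θ M b (SchP (Nat.card F) M t₂.t) := by
    rw [h₂, smul_smul, inv_mul_cancel₀ hs₂, one_smul]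
  let l : ∀ {k : ℕ} (χ : GL (Fin k) F → ℂ) [Fintype (GL (Fin k) F)], RS M →ₗ[ℂ] ℂ := fun {k} χ _ =>
    { toFun := fun x => classInner (Om (F := F) θ M k x) χ
      map_add' := fun x y => by rw [H941.GLn.Om_add, Characters.Core.classInner_add_left]
      map_smul' := fun c x => by
        rw [H941.GLn.Om_smul, Characters.Core.classInner_smul_left]; rfl }
  rw [classInner_evT e' _ ψ (coP M x) (fun y => hHC x y.1 y.2 (e' y) (he' y)) χ₁ χ₂ (fun y => hψ y (e' y) (he' y))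
    (l χ₁) (l χ₂) (fun _ => rfl) (fun _ => rfl)]
  have hx' : x ∈ PGen (Nat.card F : ℤ) M 1 := by
    have h3 : GenR (Nat.card F : ℤ) M ≤ PGen (Nat.card F : ℤ) M 1 := by
      refine Algebra.adjoin_le ?_
      rintro _ ⟨v, rfl⟩
      exact Algebra.subset_adjoin ⟨v.1, v.2, Nat.coprime_one_right _, rfl⟩
    exact h3 hx
  rw [H623.GLn.map_coP_congr hx' (g₁' := (conj s₁)⁻¹ • frm (Nat.card F : ℤ) M (SchP (Nat.card F) M t₁.t))
    (g₂' := (conj s₂)⁻¹ • frm (Nat.card F : ℤ) M (SchP (Nat.card F) M t₂.t))]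
  · rw [TensorProduct.map_smul_left, TensorProduct.map_smul_right, LinearMap.smul_apply, LinearMap.smul_apply, map_smul,
      map_smul, smul_eq_mul, smul_eq_mul, mul_assoc]
    congr 2
    rw [← H120.GLB.Ctx.cfE_one hQ hx]
    unfold cfE
    refine H623.GLn.map_coP_congr hx' (fun y hy => ?_) (fun _ _ => rfl)
    have hy' : H120.GLB.Tau.gen (Nat.card F : ℤ) M y = y := by
      have hle : PGen (Nat.card F : ℤ) M 1 ≤ AlgHom.equalizer (H120.GLB.Tau.gen (Nat.card F : ℤ) M)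
          (AlgHom.id ℂ (RS M)) := by
        refine Algebra.adjoin_le ?_
        rintro _ ⟨k, c, -, rfl⟩
        exact H120.GLB.Ctx.gen_rv hQ k c
      exact hle hy
    rw [LinearMap.comp_apply, H120.GLB.Ctx.PhiF_one, pow_one]
    show _ = frm (Nat.card F : ℤ) M _ (H120.GLB.Tau.gen (Nat.card F : ℤ) M y)
    rw [hy']
  · intro y hy
    show classInner (Om (F := F) θ M a y) χ₁ = _
    rw [hχ₁, Characters.Core.classInner_smul_right, H623.GLn.classInner_Om_gen hctx ha (H623.GLn.PGen_le hy)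
      (SchP_mem_Hom hQ t₁), map_inv₀]
    rfl
  · intro y hy
    show classInner (Om (F := F) θ M b y) χ₂ = _
    rw [hχ₂, Characters.Core.classInner_smul_right, H623.GLn.classInner_Om_gen hctx hb (H623.GLn.PGen_le hy)
      (SchP_mem_Hom hQ t₂), map_inv₀]
    rfl

/-- the pairing is nonzero only for the members of the product of the families -/
theorem mem_of_classInner_ne_zero (hctx : Ctx F θ N M) (hp : p.Prime) {a b n m : ℕ} (ha : a ≤ N) (hb : b ≤ N)
    (ham : a ≤ m) (hbm : b ≤ m)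
    (e : ((Fin a → F) × (Fin b → F)) ≃ₗ[F] (Fin n → F)) (U : Subgroup (GL (Fin n) F))
    (hHC : ∀ (x : RS M) (A : GL (Fin a) F) (B : GL (Fin b) F) (h : (jj (K := F) e).range), jj e (A, B) = h →
      hcRes (jj (K := F) e).range U (Om θ M n x) h = evT θ M (Matrix.toLin' A.1) (Matrix.toLin' B.1) (coP M x))
    [Fintype (jj (K := F) e).range]
    (t₀ : LabZ (Nat.card F) M m n) (h₀ : POnly M p t₀.t) (δ₀ : ZMod M) (h₁ : OnlyOn (Nat.card F) M δ₀ t₀.t)
    (t₁ : LabZ (Nat.card F) M m a) (h₁p : POnly M p t₁.t) (h₁o : OnlyOn (Nat.card F) M δ₀ t₁.t)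
    (t₂ : LabZ (Nat.card F) M m b) (h₂p : POnly M p t₂.t) (h₂o : OnlyOn (Nat.card F) M δ₀ t₂.t)
    (hq : ((Nat.card F : ℕ) : ZMod p) = 1) {χ : IrrCharacter (GL (Fin n) F)} (hχ : χ ∈ famSet θ p t₀)
    (ψ : IrrCharacter (jj (K := F) e).range)
    (h : classInner (hcRes (jj (K := F) e).range U (χ : GL (Fin n) F → ℂ)) (ψ : (jj (K := F) e).range → ℂ) ≠ 0) :
    ψ ∈ prodBlk (jj (K := F) e).range (jj e) (famSet θ p t₁) (famSet θ p t₂) := by
  have hQ := H112.GLB.isUnit_card hctx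
  have hQp : (((Nat.card F : ℕ) : ℤ) : ZMod p) = 1 := by exact_mod_cast hq
  obtain ⟨t, ⟨s, hs⟩, hfam⟩ := hχ
  let e' : GL (Fin a) F × GL (Fin b) F ≃* (jj (K := F) e).range := MonoidHom.ofInjective (H901.Sl.jj_injective e)
  have he' : ∀ x, jj (K := F) e x = (e' x : GL (Fin n) F) := fun x => rfl
  have h3 : IsIrrCharacter (GL (Fin a) F × GL (Fin b) F) (fun x => (ψ : (jj (K := F) e).range → ℂ) (e' x)) :=
    Characters.Core.isIrr_comp (e' : GL (Fin a) F × GL (Fin b) F →* (jj (K := F) e).range) e'.surjective ψ.2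
  obtain ⟨c₁, c₂, hc₁, hc₂, hab⟩ := (Cfsg.Agent.S0188.result _).1 h3
  have hψ : ∀ (y : GL (Fin a) F × GL (Fin b) F) (h : (jj (K := F) e).range), jj e y = h →
      (ψ : (jj (K := F) e).range → ℂ) h = c₁ y.1 * c₂ y.2 := by
    intro y h hy
    have h4 : e' y = h := Subtype.ext ((he' y).symm.trans hy)
    rw [← h4]
    exact congrFun hab y
  obtain ⟨t₁', ⟨s₁, hs₁⟩, -⟩ := (isLab_bij hctx ha ham).1 ⟨c₁, hc₁⟩
  obtain ⟨t₂', ⟨s₂, hs₂⟩, -⟩ := (isLab_bij hctx hb hbm).1 ⟨c₂, hc₂⟩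
  have hne : ∀ s : ℤˣ, (((s : ℤ) : ℂ)) ≠ 0 := fun s => by exact_mod_cast s.ne_zero
  have h5 := classInner_hcRes hctx ha hb e U hHC (SchP_mem_Hom hQ t).1 hψ (hne s₁) (hne s₂) hs₁ hs₂
  have h6 : hcRes (jj (K := F) e).range U (Om θ M n (SchP (Nat.card F) M t.t)) =
      (((s : ℤ) : ℂ)) • hcRes (jj (K := F) e).range U (χ : GL (Fin n) F → ℂ) := by
    have hU := Fintype.ofFinite U
    funext x
    rw [hs, Pi.smul_apply]
    unfold hcRes
    rw [finsum_eq_sum_of_fintype, finsum_eq_sum_of_fintype, smul_eq_mul, mul_div_assoc', Finset.mul_sum]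
    rfl
  rw [h6, Characters.Core.classInner_smul_left] at h5
  have h7 : form (Nat.card F : ℤ) M (SchP (Nat.card F) M t.t) (SchP (Nat.card F) M t₁'.t * SchP (Nat.card F) M t₂'.t) ≠ 0 := by
    intro h8
    rw [h8, mul_zero] at h5
    exact mul_ne_zero (hne s) h h5
  have h8 := bsz_add_of_form_ne_zero hQ t t₁' t₂' h7
  have hover := over_of_sameFam hp h₀ h₁ hfam
  refine ⟨⟨c₁, hc₁⟩, ⟨t₁', ⟨s₁, hs₁⟩, ?_⟩, ⟨c₂, hc₂⟩, ⟨t₂', ⟨s₂, hs₂⟩, ?_⟩, hψ⟩
  · exact sameFam_of_over hp hQ hQp t₁ t₁' (over_of_pOnly hp h₁p h₁o) fun c hc => hover c (by rw [h8 c]; omega)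
  · exact sameFam_of_over hp hQ hQp t₂ t₂' (over_of_pOnly hp h₂p h₂o) fun c hc => hover c (by rw [h8 c]; omega)

theorem mem_of_sum_mem_span {ι W : Type*} [Fintype ι] [AddCommGroup W] [Module ℂ W] {v : ι → W}
    (hv : LinearIndependent ℂ v) {S : Set ι} {a : ι → ℂ} (h : ∑ j, a j • v j ∈ Submodule.span ℂ (v '' S)) {j : ι}
    (hj : a j ≠ 0) : j ∈ S := by
  classical
  obtain ⟨l, hl, h2⟩ := (Finsupp.mem_span_image_iff_linearCombination ℂ).1 h
  have h3 : Finsupp.linearCombination ℂ v (Finsupp.equivFunOnFinite.symm a) = ∑ j, a j • v j := by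
    rw [Finsupp.linearCombination_apply, Finsupp.sum_fintype]
    · rfl
    · intro i; rw [zero_smul]
  have h4 : Finsupp.equivFunOnFinite.symm a = l := hv (h3.trans h2.symm)
  refine hl ?_
  rw [← h4, Finset.mem_coe, Finsupp.mem_support_iff]
  exact hj

/-- **hBC**: the constituents of the Harish-Chandra restriction of a Brauer character over `Δ^w`. -/
theorem hBC_prod (hctx : Ctx F θ N M) (hpF : p ≠ ringChar F) (h𝔐 : IsPModular p 𝔐) (hV : Above 𝔐 V)
    {a b n m : ℕ} (hn : n ≤ N) (hm : n ≤ m) (e : ((Fin a → F) × (Fin b → F)) ≃ₗ[F] (Fin n → F))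
    (U : Subgroup (GL (Fin n) F)) (hU : (Nat.card U).Coprime p)
    (hLU : ∀ l ∈ (jj (K := F) e).range, ∀ u ∈ U, l * u * l⁻¹ ∈ U)
    (hHC : ∀ (x : RS M) (A : GL (Fin a) F) (B : GL (Fin b) F) (h : (jj (K := F) e).range), jj e (A, B) = h →
      hcRes (jj (K := F) e).range U (Om θ M n x) h = evT θ M (Matrix.toLin' A.1) (Matrix.toLin' B.1) (coP M x))
    (t₀ : LabZ (Nat.card F) M m n) (h₀ : POnly M p t₀.t) (δ₀ : ZMod M) (h₁ : OnlyOn (Nat.card F) M δ₀ t₀.t)
    (t₁ : LabZ (Nat.card F) M m a) (h₁p : POnly M p t₁.t) (h₁o : OnlyOn (Nat.card F) M δ₀ t₁.t)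
    (t₂ : LabZ (Nat.card F) M m b) (h₂p : POnly M p t₂.t) (h₂o : OnlyOn (Nat.card F) M δ₀ t₂.t)
    (hq : ((Nat.card F : ℕ) : ZMod p) = 1)
    {i : IBr V (GL (Fin n) F)} (hi : i ∈ ibrUnder V (famSet θ p t₀)) (μ : IBr V (jj (K := F) e).range → ℕ)
    (hμ : ∀ x : (jj (K := F) e).range, IsPRegular p x →
      hcRes (jj (K := F) e).range U (phi p i) x = ∑ᶠ j, (μ j : ℂ) * phi p j x)
    (j : IBr V (jj (K := F) e).range) (hj : μ j ≠ 0) :
    j ∈ ibrUnder V (prodBlk (jj (K := F) e).range (jj e) (famSet θ p t₁) (famSet θ p t₂)) := by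
  classical
  have hp := h𝔐.1
  have : Fact p.Prime := ⟨hp⟩
  have hnab : a + b = n := by
    have h2 := e.finrank_eq
    rw [Module.finrank_prod, Module.finrank_fin_fun, Module.finrank_fin_fun, Module.finrank_fin_fun] at h2
    exact h2
  let L := (jj (K := F) e).range
  have hLdef : L = (jj (K := F) e).range := rfl
  have := Fintype.ofFinite (jj (K := F) e).range
  have hfU := Fintype.ofFinite U
  have := Characters.Core.finite_irr (G := GL (Fin n) F)
  have := Fintype.ofFinite (IrrCharacter (GL (Fin n) F))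
  have := Characters.Core.finite_irr (G := (jj (K := F) e).range)
  have := Fintype.ofFinite (IrrCharacter (jj (K := F) e).range)
  have := Fintype.ofFinite (IBr V (jj (K := F) e).range)
  set BL := prodBlk (jj (K := F) e).range (jj e) (famSet θ p t₁) (famSet θ p t₂) with hBL
  obtain ⟨k, hk0, hk⟩ := H699.EqDeg.exists_int_comb h𝔐 hV (isUnion_famSet hctx hpF h𝔐 hn hm t₀) hi
  -- the restrictions of the ordinary characters
  have hmem : ∀ χ ∈ famSet θ p t₀, pReg p (hcRes (jj (K := F) e).range U (χ : GL (Fin n) F → ℂ)) ∈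
      Submodule.span ℂ (phi p '' ibrUnder V BL) := by
    intro χ hχ
    apply map_pReg_le_span h𝔐 hV BL
    refine ⟨_, ?_, rfl⟩
    have h2 := Characters.Core.classFunction_eq_sum (isClassFunction_hcRes (jj (K := F) e).range U hLU
      (Characters.Core.isIrr_isClassFunction χ.2))
    rw [h2]
    refine Submodule.sum_mem _ fun ψ _ => ?_
    by_cases h3 : classInner (hcRes (jj (K := F) e).range U (χ : GL (Fin n) F → ℂ))
        (ψ : (jj (K := F) e).range → ℂ) = 0
    · rw [h3, zero_smul]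
      exact Submodule.zero_mem _
    · exact Submodule.smul_mem _ _ (Submodule.subset_span ⟨ψ, mem_of_classInner_ne_zero hctx hp (by omega) (by omega)
        (by omega) (by omega) e U hHC t₀ h₀ δ₀ h₁ t₁ h₁p h₁o t₂ h₂p h₂o hq hχ ψ h3, rfl⟩)
  -- the sum is in the span
  have hsum : ∑ j, (μ j : ℂ) • phi p j ∈ Submodule.span ℂ (phi p '' ibrUnder V BL) := by
    have h2 : ∑ j, (μ j : ℂ) • phi p j = ∑ χ : IrrCharacter (GL (Fin n) F),
        (k χ : ℂ) • pReg p (hcRes (jj (K := F) e).range U (χ : GL (Fin n) F → ℂ)) := by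
      funext x
      rw [Finset.sum_apply, Finset.sum_apply]
      by_cases hx : IsPRegular p x
      · have h3 := hμ x hx
        rw [finsum_eq_sum_of_fintype] at h3
        have h4 : ∑ j, ((μ j : ℂ) • phi p j) x = ∑ j, (μ j : ℂ) * phi p j x := rfl
        rw [h4, ← h3]
        have h5 : ∀ u : U, IsPRegular p ((x : GL (Fin n) F) * u) := fun u =>
          H379.GLB.isPRegular_mul hp hU (fun v hv => hLU x x.2 v hv)
            (by unfold IsPRegular at hx ⊢; rwa [Subgroup.orderOf_coe]) u.2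
        unfold hcRes
        rw [finsum_eq_sum_of_fintype]
        have h6 : ∀ u : U, phi p i ((x : GL (Fin n) F) * u) =
            ∑ χ : IrrCharacter (GL (Fin n) F), (k χ : ℂ) * (χ : GL (Fin n) F → ℂ) (x * u) := by
          intro u
          rw [hk, Finset.sum_apply]
          refine Finset.sum_congr rfl fun χ _ => ?_
          rw [Pi.smul_apply, smul_eq_mul, pReg_of (h5 u)]
        rw [Finset.sum_congr rfl fun u _ => h6 u, Finset.sum_comm, Finset.sum_div]
        refine Finset.sum_congr rfl fun χ _ => ?_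
        rw [Pi.smul_apply, smul_eq_mul, pReg_of hx, finsum_eq_sum_of_fintype, mul_div_assoc', Finset.mul_sum]
      · rw [Finset.sum_eq_zero, Finset.sum_eq_zero]
        · intro χ _
          rw [Pi.smul_apply, pReg_of_not hx, smul_zero]
        · intro j _
          rw [Pi.smul_apply, phi_of_not j hx, smul_zero]
    rw [h2]
    refine Submodule.sum_mem _ fun χ _ => ?_
    by_cases hχ : χ ∈ famSet θ p t₀
    · exact Submodule.smul_mem _ _ (hmem χ hχ)
    · rw [hk0 χ hχ, Int.cast_zero, zero_smul]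
      exact Submodule.zero_mem _
  by_contra hnot
  have : CharP (IsLocalRing.ResidueField V) p := hV.charP h𝔐
  have hlin := linearIndependent_phi (V := V) (G := (jj (K := F) e).range) (p := p)
  exact hnot (mem_of_sum_mem_span hlin hsum (Nat.cast_ne_zero.2 hj))

end chars

end Cfsg.Agent.H614.GLn.RSt
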